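import Cfsg.Agent.Syl2.G2a
import Cfsg.Agent.Syl2.Wr
import Cfsg.Agent.Classical.PSL2Sol

/-! The normaliser-type subgroup `T.(2 × 2)` of `G₂(q)`, `T = (q - ε)²`, contains a Sylow 2-subgroup and is
generated by involutions modulo squares. -/

set_option autoImplicit false

namespace Cfsg.Agent.Syl2.G2

open Matrix Cfsg.Lie Cfsg.Agent.Classical.Cov Cfsg.Agent.Geom Subgroup
open scoped commutatorElement

section Grp

theorem sea_of_hom {N G : Type*} [Group N] [Group G] [Finite G] (f : N →* G) (hf : Function.Injective f)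
    (h : SEA N) {m : ℕ} (hm : Odd m) (hd : Nat.card G ∣ Nat.card N * m) : SEA G := by
  have : Finite N := Finite.of_injective f hf
  obtain ⟨P⟩ : Nonempty (Sylow 2 N) := inferInstance
  refine sea_of_sylow ((P.isPGroup'.map f).toSylow fun h2 => ?_) ((h P).map f)
  have e1 := ((P : Subgroup N).map f).card_mul_index
  rw [card_map_of_injective hf] at e1
  rw [← e1, ← (P : Subgroup N).card_mul_index, mul_assoc, Nat.mul_dvd_mul_iff_left Nat.card_pos] at hd
  rcases (Nat.Prime.dvd_mul Nat.prime_two).1 (h2.trans hd) with h3 | h3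
  exacts [P.not_dvd_index h3, (Nat.not_even_iff_odd.2 hm) (even_iff_two_dvd.2 h3)]

theorem sea_abs {N : Type*} [Group N] [Finite N] (T : Subgroup N) [T.Normal] (σ w : N)
    (hi : ∀ t ∈ T, σ * t * σ⁻¹ = t⁻¹) (hσ : σ ^ 2 = 1) (hw : w ^ 2 = 1)
    (hg : T ⊔ zpowers σ ⊔ zpowers w = ⊤) (hT : T.index = 2 ^ 2) : SEA N := by
  have hc : ∀ u ∈ T, ∀ v ∈ T, u * v = v * u := fun u hu v hv => by
    have := hi _ (mul_mem hu hv)
    rw [← conj_mul, hi u hu, hi v hv, ← _root_.mul_inv_rev, _root_.inv_inj] at this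
    exact this.symm
  obtain ⟨P, hP⟩ := (IsPGroup.of_card (p := 2) (G := zpowers w) (n := (orderOf w).factorization 2) (by
    rw [Nat.card_zpowers]
    by_cases h : w = 1
    · simp [h]
    · rw [orderOf_eq_prime hw h, Nat.Prime.factorization_self Nat.prime_two, pow_one])).exists_le_sylow
  have hwP : w ∈ (P : Subgroup N) := hP (mem_zpowers w)
  have htop : T ⊔ (P : Subgroup N) = ⊤ := by
    rw [← index_eq_one]
    have h1 : (T ⊔ (P : Subgroup N)).index ∣ T.index := index_dvd_of_le le_sup_left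
    rw [hT] at h1
    exact Nat.eq_one_of_dvd_coprimes
      (((Nat.Prime.coprime_iff_not_dvd Nat.prime_two).2 P.not_dvd_index).pow_left 2) h1 (index_dvd_of_le le_sup_right)
  obtain ⟨t, ht, s, hs, e⟩ := (mem_sup_of_normal_left (x := σ)).1 (htop ▸ mem_top σ)
  have es : s = t⁻¹ * σ := by rw [← e]; group
  have hi' : ∀ u ∈ T, s * u * s⁻¹ = u⁻¹ := fun u hu => by
    have : s * u * s⁻¹ = t⁻¹ * (σ * u * σ⁻¹) * t := by rw [es]; group
    rw [this, hi u hu, hc _ (inv_mem ht) _ (inv_mem hu)]; group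
  have hs2 : s ^ 2 = 1 := by
    have : s ^ 2 = t⁻¹ * (σ * t⁻¹ * σ⁻¹) * σ ^ 2 := by rw [es, sq, sq]; group
    rw [this, hσ, hi _ (inv_mem ht)]; group
  refine sea_of_sylow P fun x hx => ?_
  have hV : closure {s, w} ≤ sqSub (P : Subgroup N) := (closure_le _).2 (by
    rintro _ (rfl | rfl)
    exacts [⟨hs, hs2 ▸ one_mem _⟩, ⟨hwP, hw ▸ one_mem _⟩])
  have h2 : T ⊔ closure {s, w} = ⊤ := by
    rw [eq_top_iff, ← hg]
    refine sup_le (sup_le le_sup_left (zpowers_le.2 ?_)) (zpowers_le.2 (mem_sup_right (subset_closure (by simp))))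
    exact e ▸ mul_mem (mem_sup_left ht) (mem_sup_right (subset_closure (by simp)))
  obtain ⟨u, hu, v, hv, rfl⟩ := (mem_sup_of_normal_left (x := x)).1 (h2 ▸ mem_top x)
  have huP : u ∈ (P : Subgroup N) := (mul_mem_cancel_right (hV hv).1).1 hx
  refine (mul_mem (show u ∈ sqSub (P : Subgroup N) from ⟨huP, ?_⟩) (hV hv)).2
  have : u ^ 2 = ⁅u, s⁆ := by
    rw [commutatorElement_def, mul_assoc, mul_assoc, ← mul_assoc s, hi' _ (inv_mem hu), inv_inv, sq]
  exact this ▸ commutator_mem_commutator huP hs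

theorem sea_tsw {L : Type*} [Group L] [Finite L] (T : Subgroup L) (σ w : L)
    (hi : ∀ t ∈ T, σ * t * σ⁻¹ = t⁻¹) (hσ : σ ^ 2 = 1) (hw : w ^ 2 = 1) (hn : ∀ t ∈ T, w * t * w⁻¹ ∈ T)
    (h1 : w * σ * w⁻¹ * σ⁻¹ ∈ T) (h2 : σ ∉ T) (h3 : w ∉ T) (h4 : w * σ ∉ T) :
    SEA ↥(T ⊔ zpowers σ ⊔ zpowers w) ∧ Nat.card ↥(T ⊔ zpowers σ ⊔ zpowers w) = Nat.card T * 2 ^ 2 := by
  have n1 : σ ∈ normalizer (T : Set L) := mem_normalizer_fintype fun t ht => by
    rw [hi t ht]; exact inv_mem ht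
  have n2 : w ∈ normalizer (T : Set L) := mem_normalizer_fintype hn
  have n3 : w ∈ normalizer ((T ⊔ zpowers σ : Subgroup L) : Set L) := mem_normalizer_fintype fun x hx => by
    obtain ⟨t, ht, i, rfl⟩ := (PGrp.mem_sup_zpowers n1).1 hx
    rw [← conj_mul, ← conj_zpow]
    refine mul_mem (mem_sup_left (hn t ht)) (zpow_mem ?_ i)
    simpa using mul_mem (mem_sup_left h1) (mem_sup_right (mem_zpowers σ) : σ ∈ T ⊔ zpowers σ)
  have n4 : w ∉ T ⊔ zpowers σ := fun hx => by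
    obtain ⟨t, ht, i, rfl⟩ := (PGrp.mem_sup_zpowers n1).1 hx
    have hσ' : σ ^ (2 : ℤ) = 1 := by rw [zpow_ofNat, hσ]
    obtain ⟨k, rfl | rfl⟩ := Int.even_or_odd' i
    · exact h3 (by rwa [_root_.zpow_mul, hσ', _root_.one_zpow, mul_one])
    · refine h4 ?_
      rwa [_root_.zpow_add_one, _root_.zpow_mul, hσ', _root_.one_zpow, one_mul, mul_assoc, ← sq, hσ, mul_one]
  have c : Nat.card ↥(T ⊔ zpowers σ ⊔ zpowers w) = Nat.card T * 2 ^ 2 := by
    rw [PGrp.card_sup_zpowers Nat.prime_two n3 n4 (hw ▸ one_mem _),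
      PGrp.card_sup_zpowers Nat.prime_two n1 h2 (hσ ▸ one_mem _), mul_assoc, sq]
  refine ⟨?_, c⟩
  have hle : T ≤ T ⊔ zpowers σ ⊔ zpowers w := le_sup_left.trans le_sup_left
  have : (T.subgroupOf (T ⊔ zpowers σ ⊔ zpowers w)).Normal := (normal_subgroupOf_iff_le_normalizer hle).2
    (sup_le (sup_le le_normalizer (zpowers_le.2 n1)) (zpowers_le.2 n2))
  refine sea_abs (T.subgroupOf _) ⟨σ, mem_sup_left (mem_sup_right (mem_zpowers σ))⟩
    ⟨w, mem_sup_right (mem_zpowers w)⟩ (fun t ht => Subtype.ext (hi t ht)) (Subtype.ext hσ) (Subtype.ext hw) ?_ ?_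
  · refine map_injective (subtype_injective _) ?_
    rw [Subgroup.map_sup, Subgroup.map_sup, map_subgroupOf_eq_of_le hle, MonoidHom.map_zpowers, MonoidHom.map_zpowers,
      ← MonoidHom.range_eq_map, range_subtype]
    rfl
  · have := (T.subgroupOf (T ⊔ zpowers σ ⊔ zpowers w)).card_mul_index
    rw [c, Nat.card_congr (subgroupOfEquivOfLe hle).toEquiv] at this
    exact Nat.eq_of_mul_eq_mul_left Nat.card_pos this

end Grp

variable {F : Type*} [Field F]

/-- The octonion product in coordinates adapted to the torus `(q - ε)²`. -/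
def oct (x y : Fin 8 → F) : Fin 8 → F :=
  ![x 0 * y 0 - x 1 * y 1 + x 2 * y 2 + x 3 * y 3 + x 4 * y 4 + x 5 * y 5 - x 6 * y 6 - x 7 * y 7,
    x 0 * y 1 + x 1 * y 0 - x 2 * y 3 + x 3 * y 2 + x 4 * y 5 - x 5 * y 4 + x 6 * y 7 - x 7 * y 6,
    x 0 * y 2 - x 1 * y 3 + x 2 * y 0 + x 3 * y 1 - x 4 * y 6 - x 5 * y 7 + x 6 * y 4 + x 7 * y 5,
    x 0 * y 3 + x 1 * y 2 - x 2 * y 1 + x 3 * y 0 + x 4 * y 7 - x 5 * y 6 + x 6 * y 5 - x 7 * y 4,
    x 0 * y 4 + x 1 * y 5 + x 2 * y 6 - x 3 * y 7 + x 4 * y 0 - x 5 * y 1 - x 6 * y 2 + x 7 * y 3,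
    x 0 * y 5 - x 1 * y 4 + x 2 * y 7 + x 3 * y 6 + x 4 * y 1 + x 5 * y 0 - x 6 * y 3 - x 7 * y 2,
    x 0 * y 6 - x 1 * y 7 + x 2 * y 4 + x 3 * y 5 - x 4 * y 2 - x 5 * y 3 + x 6 * y 0 + x 7 * y 1,
    x 0 * y 7 + x 1 * y 6 + x 2 * y 5 - x 3 * y 4 + x 4 * y 3 - x 5 * y 2 - x 6 * y 1 + x 7 * y 0]

/-- A linear automorphism from a function with a left inverse. -/
noncomputable def mkE (f f' : (Fin 8 → F) → (Fin 8 → F)) (h1 : ∀ x y, f (x + y) = f x + f y)
    (h2 : ∀ (c : F) x, f (c • x) = c • f x) (h4 : ∀ x, f' (f x) = x) : (Fin 8 → F) ≃ₗ[F] (Fin 8 → F) :=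
  LinearEquiv.ofInjectiveEndo ⟨⟨f, h1⟩, h2⟩ (Function.LeftInverse.injective h4)

/-- The change of coordinates. -/
def psiF (y : Fin 8 → F) : Fin 8 → F :=
  ![y 0 + y 2, y 3 - y 1, y 4 + y 6, y 5 + y 7, y 3 + y 1, y 4 - y 6, y 5 - y 7, y 0 - y 2]

theorem psiF_oct (x y : Fin 8 → F) : psiF (oct x y) = zornMul (psiF x) (psiF y) := by
  ext i; fin_cases i <;> simp [psiF, oct, zornMul, dot3, cross3] <;> ring

/-- The change of coordinates. -/
noncomputable def psi (h2 : (2 : F) ≠ 0) : (Fin 8 → F) ≃ₗ[F] (Fin 8 → F) :=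
  mkE psiF (fun x => (2 : F)⁻¹ • ![x 0 + x 7, x 4 - x 1, x 0 - x 7, x 1 + x 4, x 2 + x 5, x 3 + x 6, x 2 - x 5,
    x 3 - x 6]) (fun x y => by ext i; fin_cases i <;> simp [psiF] <;> ring)
    (fun c x => by ext i; fin_cases i <;> simp [psiF] <;> ring)
    fun x => by ext i; fin_cases i <;> simp [psiF] <;> field_simp <;> ring

variable (F) in
/-- Automorphisms of `oct`. -/
def octAut : Subgroup ((Fin 8 → F) ≃ₗ[F] (Fin 8 → F)) where
  carrier := {g | ∀ x y, g (oct x y) = oct (g x) (g y)}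
  mul_mem' {g h} hg hh x y := by
    simp only [LinearEquiv.mul_apply]
    rw [hh, hg]
  one_mem' _ _ := rfl
  inv_mem' {g} hg x y := g.injective (by
    rw [hg]
    exact (g.apply_symm_apply _).trans (by rw [LinearEquiv.coe_inv, g.apply_symm_apply, g.apply_symm_apply]))

/-- The embedding of `octAut` in `G₂`. -/
noncomputable def toG2 (h2 : (2 : F) ≠ 0) : octAut F →* G2 F :=
  (((glEquiv (Fin 8) F).symm.toMonoidHom.comp (MulAut.conj (psi h2)).toMonoidHom).comp (octAut F).subtype).codRestrict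
    _ fun g x y => by
      obtain ⟨x, rfl⟩ := (psi h2).surjective x
      obtain ⟨y, rfl⟩ := (psi h2).surjective y
      have e : ∀ z, (psi h2 * g.1 * (psi h2)⁻¹) (psi h2 z) = psi h2 (g.1 z) := fun z => by
        rw [← LinearEquiv.mul_apply, inv_mul_cancel_right, LinearEquiv.mul_apply]
      have e' : ∀ x y, zornMul (psi h2 x) (psi h2 y) = psi h2 (oct x y) := fun x y => (psiF_oct x y).symm
      simp only [Units.coeHom_apply, MonoidHom.comp_apply, MulEquiv.toMonoidHom_eq_coe, MonoidHom.coe_coe,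
        glEquiv_symm_mulVec, MulAut.conj_apply, coe_subtype]
      rw [e', e, e, e, e', g.2]

theorem toG2_injective (h2 : (2 : F) ≠ 0) : Function.Injective (toG2 h2) := fun _ _ h =>
  Subtype.ext ((MulAut.conj (psi h2)).injective ((glEquiv (Fin 8) F).symm.injective (congrArg Subtype.val h)))

/-- The torus elements. -/
def tauF (c s d t : F) (y : Fin 8 → F) : Fin 8 → F :=
  ![y 0, y 1, (c * d + s * t) * y 2 - (s * d - c * t) * y 3, (s * d - c * t) * y 2 + (c * d + s * t) * y 3,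
    c * y 4 - s * y 5, s * y 4 + c * y 5, d * y 6 - t * y 7, t * y 6 + d * y 7]

theorem tauF_mul (c s d t c' s' d' t' : F) (y : Fin 8 → F) : tauF c s d t (tauF c' s' d' t' y) =
    tauF (c * c' - s * s') (s * c' + c * s') (d * d' - t * t') (t * d' + d * t') y := by
  ext i; fin_cases i <;> simp [tauF] <;> ring

theorem tauF_one (y : Fin 8 → F) : tauF 1 0 1 0 y = y := by
  ext i; fin_cases i <;> simp [tauF]

theorem tauF_inv {c s d t : F} (h : c ^ 2 + s ^ 2 = 1) (h' : d ^ 2 + t ^ 2 = 1) (y : Fin 8 → F) :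
    tauF c s d t (tauF c (-s) d (-t) y) = y := by
  rw [tauF_mul]
  convert tauF_one y using 2
  exacts [by linear_combination h, by ring, by linear_combination h', by ring]

theorem tauF_oct1 {c s : F} (h : c ^ 2 + s ^ 2 = 1) (x y : Fin 8 → F) :
    tauF c s 1 0 (oct x y) = oct (tauF c s 1 0 x) (tauF c s 1 0 y) := by
  ext i; fin_cases i <;> simp [tauF, oct] <;> grind

theorem tauF_oct2 {c s : F} (h : c ^ 2 + s ^ 2 = 1) (x y : Fin 8 → F) :
    tauF 1 0 c s (oct x y) = oct (tauF 1 0 c s x) (tauF 1 0 c s y) := by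
  ext i; fin_cases i <;> simp [tauF, oct] <;> grind

theorem tauF_oct {c s d t : F} (h : c ^ 2 + s ^ 2 = 1) (h' : d ^ 2 + t ^ 2 = 1) (x y : Fin 8 → F) :
    tauF c s d t (oct x y) = oct (tauF c s d t x) (tauF c s d t y) := by
  have e : ∀ z, tauF c s d t z = tauF c s 1 0 (tauF 1 0 d t z) := fun z => by rw [tauF_mul]; simp
  rw [e, e, e, tauF_oct2 h', tauF_oct1 h]

variable (F) in
/-- The torus. -/
def Tor : Subgroup ((Fin 8 → F) ≃ₗ[F] (Fin 8 → F)) where
  carrier := {g | ∃ c s d t : F, c ^ 2 + s ^ 2 = 1 ∧ d ^ 2 + t ^ 2 = 1 ∧ ∀ y, g y = tauF c s d t y}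
  mul_mem' := by
    rintro g h ⟨c, s, d, t, a1, a2, a3⟩ ⟨c', s', d', t', b1, b2, b3⟩
    exact ⟨c * c' - s * s', s * c' + c * s', d * d' - t * t', t * d' + d * t',
      by linear_combination (c' ^ 2 + s' ^ 2) * a1 + b1,
      by linear_combination (d' ^ 2 + t' ^ 2) * a2 + b2, fun y => by rw [LinearEquiv.mul_apply, a3, b3, tauF_mul]⟩
  one_mem' := ⟨1, 0, 1, 0, by simp, by simp, fun y => (tauF_one y).symm⟩
  inv_mem' := by
    rintro g ⟨c, s, d, t, a1, a2, a3⟩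
    exact ⟨c, -s, d, -t, by linear_combination a1, by linear_combination a2, fun y =>
      g.injective ((g.apply_symm_apply y).trans (by rw [a3, tauF_inv a1 a2]))⟩

theorem card_Tor : Nat.card (Tor F) = Nat.card {p : F × F // p.1 ^ 2 + p.2 ^ 2 = 1} ^ 2 := by
  rw [sq, ← Nat.card_prod]
  symm
  refine Nat.card_congr (Equiv.ofBijective (fun p => ⟨mkE (tauF p.1.1.1 p.1.1.2 p.2.1.1 p.2.1.2)
    (tauF p.1.1.1 (-p.1.1.2) p.2.1.1 (-p.2.1.2)) (fun x y => by ext i; fin_cases i <;> simp [tauF] <;> ring)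
    (fun c x => by ext i; fin_cases i <;> simp [tauF] <;> ring) fun x => by
      simpa using tauF_inv (s := -p.1.1.2) (t := -p.2.1.2) (by linear_combination p.1.2)
        (by linear_combination p.2.2) x, _, _, _, _, p.1.2, p.2.2, fun _ => rfl⟩) ⟨?_, ?_⟩)
  · rintro ⟨⟨⟨c, s⟩, h⟩, ⟨d, t⟩, h'⟩ ⟨⟨⟨c', s'⟩, k⟩, ⟨d', t'⟩, k'⟩ e
    have e' : tauF c s d t ![0, 0, 0, 0, 1, 0, 1, 0] = tauF c' s' d' t' ![0, 0, 0, 0, 1, 0, 1, 0] :=
      congrArg (fun g : Tor F => g.1 ![0, 0, 0, 0, 1, 0, 1, 0]) e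
    obtain rfl : c = c' := by simpa [tauF] using congrFun e' 4
    obtain rfl : s = s' := by simpa [tauF] using congrFun e' 5
    obtain rfl : d = d' := by simpa [tauF] using congrFun e' 6
    obtain rfl : t = t' := by simpa [tauF] using congrFun e' 7
    rfl
  · rintro ⟨g, c, s, d, t, a1, a2, a3⟩
    exact ⟨(⟨(c, s), a1⟩, ⟨(d, t), a2⟩), Subtype.ext (LinearEquiv.ext fun y => (a3 y).symm)⟩

/-- The involution inverting the torus. -/
def sgF (y : Fin 8 → F) : Fin 8 → F := ![y 0, -y 1, y 2, -y 3, y 4, -y 5, y 6, -y 7]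

theorem sgF_sgF (y : Fin 8 → F) : sgF (sgF y) = y := by ext i; fin_cases i <;> simp [sgF]

variable (F) in
/-- The involution inverting the torus. -/
noncomputable def sg : (Fin 8 → F) ≃ₗ[F] (Fin 8 → F) :=
  mkE sgF sgF (fun x y => by ext i; fin_cases i <;> simp [sgF] <;> ring)
    (fun c x => by ext i; fin_cases i <;> simp [sgF]) sgF_sgF

/-- The reflection. -/
def wF (a b : F) (y : Fin 8 → F) : Fin 8 → F :=
  ![y 0, y 1, -y 2, -y 3, a * y 6 + b * y 7, b * y 6 - a * y 7, -(a * y 4 + b * y 5), -(b * y 4 - a * y 5)]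

theorem wF_wF {a b : F} (h : a ^ 2 + b ^ 2 = -1) (y : Fin 8 → F) : wF a b (wF a b y) = y := by
  ext i; fin_cases i <;> simp [wF] <;> grind

/-- The reflection. -/
noncomputable def wE {a b : F} (h : a ^ 2 + b ^ 2 = -1) : (Fin 8 → F) ≃ₗ[F] (Fin 8 → F) :=
  mkE (wF a b) (wF a b) (fun x y => by ext i; fin_cases i <;> simp [wF] <;> ring)
    (fun c x => by ext i; fin_cases i <;> simp [wF] <;> ring) (wF_wF h)

theorem card_circle [Fintype F] (h : Odd (Fintype.card F)) : ∃ m, Odd m ∧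
    Nat.card F ^ 2 - 1 = Nat.card {p : F × F // p.1 ^ 2 + p.2 ^ 2 = 1} * 2 * m := by
  have h2 : (2 : F) ≠ 0 := Ring.two_ne_zero fun e => by
    have := FiniteField.even_card_of_char_two e
    obtain ⟨k, hk⟩ := h
    omega
  by_cases h4 : Fintype.card F % 4 = 3
  · rw [Classical.card_sq_add_sq (Nat.card_eq_fintype_card (α := F) ▸ h4) one_ne_zero, Nat.card_eq_fintype_card]
    obtain ⟨k, hk⟩ : ∃ k, Fintype.card F = 4 * k + 3 := ⟨Fintype.card F / 4, by omega⟩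
    exact ⟨2 * k + 1, odd_two_mul_add_one k, by rw [hk, Nat.sub_eq_iff_eq_add (Nat.one_le_pow _ _ (by omega))]; ring⟩
  · obtain ⟨i, hi⟩ : IsSquare (-1 : F) := FiniteField.isSquare_neg_one_iff.2 h4
    have e : Fˣ ≃ {p : F × F // p.1 ^ 2 + p.2 ^ 2 = 1} := Equiv.ofBijective
      (fun u => ⟨((u.1 + u.1⁻¹) / 2, i * (u.1⁻¹ - u.1) / 2), by
        have := u.ne_zero
        field_simp
        linear_combination -(1 - u.1 ^ 2) ^ 2 * hi⟩) ⟨fun u v e => Units.ext (by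
          have e1 : (u.1 + u.1⁻¹) / 2 = (v.1 + v.1⁻¹) / 2 := congrArg (·.1.1) e
          have e2 : i * (u.1⁻¹ - u.1) / 2 = i * (v.1⁻¹ - v.1) / 2 := congrArg (·.1.2) e
          have : (2 : F) * 2⁻¹ = 1 := mul_inv_cancel₀ h2
          linear_combination e1 + i * e2 + (u.1⁻¹ - u.1 - v.1⁻¹ + v.1) / 2 * hi - (u.1 - v.1) * this), by
        rintro ⟨⟨c, s⟩, h⟩
        have h' : (c + i * s) * (c - i * s) = 1 := by linear_combination h + s ^ 2 * hi
        refine ⟨Units.mk0 (c + i * s) (left_ne_zero_of_mul_eq_one h'), Subtype.ext (Prod.ext ?_ ?_)⟩ <;>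
          simp only [Units.val_mk0, ← eq_inv_of_mul_eq_one_right h'] <;> field_simp
        · ring
        · linear_combination 2 * s * hi⟩
    rw [← Nat.card_congr e, Nat.card_units, Nat.card_eq_fintype_card]
    obtain ⟨k, hk⟩ : ∃ k, Fintype.card F = 4 * k + 1 := ⟨Fintype.card F / 4, by obtain ⟨j, hj⟩ := h; omega⟩
    exact ⟨2 * k + 1, odd_two_mul_add_one k, by
      rw [hk, Nat.sub_eq_iff_eq_add (Nat.one_le_pow _ _ (by omega)), Nat.add_sub_cancel]; ring⟩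

theorem sea_G2 [Fintype F] (h : Odd (Fintype.card F)) : SEA (G2 F) := by
  have h2 : (2 : F) ≠ 0 := Ring.two_ne_zero fun e => by
    have := FiniteField.even_card_of_char_two e
    obtain ⟨k, hk⟩ := h
    omega
  obtain ⟨a, b, hab⟩ : ∃ a b : F, a ^ 2 + b ^ 2 = -1 := by
    obtain ⟨p, hp⟩ := CharP.exists F
    have : NeZero p := ⟨(CharP.char_ne_zero_of_finite F p)⟩
    obtain ⟨a, b, e⟩ := CharP.sq_add_sq F p (-1)
    exact ⟨a, b, by simpa using e⟩
  have : Finite ((Fin 8 → F) ≃ₗ[F] (Fin 8 → F)) := Finite.of_injective _ DFunLike.coe_injective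
  have s1 : ∀ y, sg F y = sgF y := fun _ => rfl
  have s2 : ∀ y, wE hab y = wF a b y := fun _ => rfl
  have s3 : sg F ^ 2 = 1 := LinearEquiv.ext sgF_sgF
  have s4 : wE hab ^ 2 = 1 := LinearEquiv.ext (wF_wF hab)
  have s5 : (sg F)⁻¹ = sg F := inv_eq_of_mul_eq_one_right (by rw [← sq, s3])
  have s6 : (wE hab)⁻¹ = wE hab := inv_eq_of_mul_eq_one_right (by rw [← sq, s4])
  have n2 : (-1 : F) ≠ 1 := fun e => h2 (by linear_combination -e)
  obtain ⟨k1, k2⟩ := sea_tsw (Tor F) (sg F) (wE hab) (by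
      rintro g ⟨c, s, d, t, a1, a2, a3⟩
      refine eq_inv_of_mul_eq_one_right (LinearEquiv.ext fun y => ?_)
      simp only [s5, LinearEquiv.mul_apply, s1, a3]
      refine Eq.trans (congrArg _ ?_) (tauF_inv a1 a2 y)
      ext i; fin_cases i <;> simp [tauF, sgF] <;> ring) s3 s4 (by
      rintro g ⟨c, s, d, t, a1, a2, a3⟩
      refine ⟨d, -t, c, -s, by linear_combination a2, by linear_combination a1, fun y => ?_⟩
      simp only [s6, LinearEquiv.mul_apply, s2, a3]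
      ext i; fin_cases i <;> simp [tauF, wF] <;> grind)
    ⟨b ^ 2 - a ^ 2, -(2 * a * b), b ^ 2 - a ^ 2, -(2 * a * b), by linear_combination (a ^ 2 + b ^ 2 - 1) * hab,
      by linear_combination (a ^ 2 + b ^ 2 - 1) * hab, fun y => by
        simp only [s5, s6, LinearEquiv.mul_apply, s1, s2]
        ext i; fin_cases i <;> simp [tauF, wF, sgF] <;> grind⟩
    (by
      rintro ⟨c, s, d, t, a1, a2, a3⟩
      exact n2 (by simpa [s1, sgF, tauF] using congrFun (a3 ![0, 1, 0, 0, 0, 0, 0, 0]) 1))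
    (by
      rintro ⟨c, s, d, t, a1, a2, a3⟩
      have e1 : a = 0 := by simpa [s2, wF, tauF] using congrFun (a3 ![0, 0, 0, 0, 0, 0, 1, 0]) 4
      have e2 : b = 0 := by simpa [s2, wF, tauF] using congrFun (a3 ![0, 0, 0, 0, 0, 0, 1, 0]) 5
      simp [e1, e2] at hab)
    (by
      rintro ⟨c, s, d, t, a1, a2, a3⟩
      exact n2 (by simpa [s1, s2, sgF, wF, tauF] using congrFun (a3 ![0, 1, 0, 0, 0, 0, 0, 0]) 1))
  have hle : Tor F ⊔ zpowers (sg F) ⊔ zpowers (wE hab) ≤ octAut F := by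
    refine sup_le (sup_le ?_ (zpowers_le.2 fun x y => ?_)) (zpowers_le.2 fun x y => ?_)
    · rintro g ⟨c, s, d, t, a1, a2, a3⟩ x y
      rw [a3, a3, a3, tauF_oct a1 a2]
    · simp only [s1]
      ext i; fin_cases i <;> simp [oct, sgF] <;> ring
    · simp only [s2]
      ext i; fin_cases i <;> simp [oct, wF] <;> grind
  obtain ⟨m, hm, e⟩ := card_circle h
  rw [← Nat.card_eq_fintype_card] at h
  refine sea_of_hom ((toG2 h2).comp (inclusion hle)) ((toG2_injective h2).comp (inclusion_injective hle)) k1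
    (m := m ^ 2 * (Nat.card F ^ 6 * (Nat.card F ^ 4 + Nat.card F ^ 2 + 1)))
    (hm.pow.mul (h.pow.mul (h.pow.add_odd h.pow).add_one)) (card_G2_dvd.trans (dvd_of_eq ?_))
  rw [k2, card_Tor, ← mul_pow, ← mul_assoc _ (m ^ 2), ← mul_pow, ← e]
  have h1 : 0 < Nat.card F := Nat.card_pos
  generalize Nat.card F = q at h1
  have a1 : 1 ≤ q ^ 2 := Nat.one_le_pow _ _ h1
  have a2 : 1 ≤ q ^ 3 := Nat.one_le_pow _ _ h1
  zify [a1, a2]
  ring

end Cfsg.Agent.Syl2.G2
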