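import Cfsg.Agent.Classical.Cov6
import Cfsg.Agent.Classical.SLCard

/-! The order of the octonion automorphism group `G₂(F)` divides `q³(q³+1)·|SL₃(q)|`: it is transitive on the
primitive idempotents and the stabiliser of one embeds in `SL₃`. -/

set_option autoImplicit false

namespace Cfsg.Agent.Syl2.G2

open Matrix Cfsg.Lie Cfsg.Agent.Classical.Cov Cfsg.Agent.Geom
open scoped MatrixGroups

variable {F : Type*} [Field F]

variable (F) in
/-- The standard idempotent. -/
def fE : Fin 8 → F := ![0, 0, 0, 0, 0, 0, 0, 1]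

theorem or_refl (x : Fin 8 → F) : OR x x := ⟨1, by simp⟩

theorem or_b0 {x : Fin 8 → F} (h : x 7 - x 0 ≠ 0) (h4 : x 4 = 0) (h5 : x 5 = 0) (h6 : x 6 = 0) :
    OR x ![x 0, 0, 0, 0, 0, 0, 0, x 7] := by
  have key : ∀ y : Fin 8 → F, OR x y → y 0 = x 0 → y 7 = x 7 → y 4 = 0 → y 5 = 0 → y 6 = 0 → y 1 ≠ 0 →
      OR x ![x 0, 0, 0, 0, 0, 0, 0, x 7] := by
    intro y hy a0 a7 a4 a5 a6 a1
    have := (hy.trans (or_long' (y 2 / y 1) (y 3 / y 1) y)).trans (or_short (-y 1 / (x 7 - x 0)) _)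
    convert this using 1
    ext i
    fin_cases i <;> simp [a0, a7, a4, a5, a6, a1, h]
  by_cases h1 : x 1 = 0
  · by_cases h2 : x 2 = 0
    · by_cases h3 : x 3 = 0
      · convert or_refl x using 1
        ext i
        fin_cases i <;> simp [*]
      · exact key _ ((or_cyc x).trans (or_cyc _)) rfl rfl h6 h4 h5 h3
    · exact key _ (or_cyc x) rfl rfl h5 h6 h4 h2
  · exact key _ (or_refl x) rfl rfl h4 h5 h6 h1

theorem or_b0' {x : Fin 8 → F} (h1 : x 0 + x 7 = 1) (h2 : zN F x = 0) (h4 : x 4 = 0) (h5 : x 5 = 0)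
    (h6 : x 6 = 0) : OR x (fE F) := by
  rw [zN_apply, h4, h5, h6] at h2
  have h3 : x 0 * x 7 = 0 := by linear_combination h2
  rcases mul_eq_zero.1 h3 with h | h
  · have h7 : x 7 = 1 := by linear_combination h1 - h
    have := or_b0 (x := x) (by simp [h, h7]) h4 h5 h6
    rwa [h, h7] at this
  · have h0 : x 0 = 1 := by linear_combination h1 - h
    have := (or_b0 (x := x) (by simp [h, h0]) h4 h5 h6).trans (or_swap _)
    convert this using 1
    ext i
    fin_cases i <;> simp [fE, h, h0]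

theorem or_idem {x : Fin 8 → F} (h1 : x 0 + x 7 = 1) (h2 : zN F x = 0) : OR x (fE F) := by
  have key : ∀ y, OR x y → y 4 ≠ 0 → OR x (fE F) := by
    intro x' hx h4
    obtain ⟨y, a1, a2, a3⟩ : ∃ y, OR x y ∧ y 0 = 0 ∧ y 4 = x' 4 :=
      ⟨_, hx.trans (or_short (-x' 0 / x' 4) x'), by simp [div_mul_cancel₀ _ h4], rfl⟩
    obtain ⟨z, b1, b2, b3, b4, b5⟩ : ∃ z, OR x z ∧ z 0 = 0 ∧ z 5 = 0 ∧ z 6 = 0 ∧ z 4 = x' 4 :=
      ⟨_, a1.trans (or_long (y 5 / x' 4) (y 6 / x' 4) y), a2, by simp [a3, div_mul_cancel₀ _ h4],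
        by simp [a3, div_mul_cancel₀ _ h4], a3⟩
    have c := b1.inv
    rw [zN_apply z, b2, b3, b4, b5, h1, h2] at c
    have c1 : z 1 = 0 := (mul_eq_zero.1 (by linear_combination -c.2 : z 1 * x' 4 = 0)).resolve_right h4
    have c7 : z 7 = 1 := by linear_combination c.1
    have d := ((b1.trans (or_swap _)).trans (or_short (-z 4) _)).trans (or_swap _)
    refine d.trans (or_b0' (d.inv.1.trans h1) (d.inv.2.trans h2) ?_ ?_ ?_) <;> simp [b2, b3, b4, c1, c7]
  by_cases h4 : x 4 = 0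
  · by_cases h5 : x 5 = 0
    · by_cases h6 : x 6 = 0
      · exact or_b0' h1 h2 h4 h5 h6
      · exact key _ ((or_cyc x).trans (or_cyc _)) h6
    · exact key _ (or_cyc x) h5
  · exact key _ (or_refl x) h4

theorem card_plane [Fintype F] {a : Fin 3 → F} (ha : a ≠ 0) (c : F) :
    Nat.card {b : Fin 3 → F // a ⬝ᵥ b = c} = Nat.card F ^ 2 := by
  let φ : (Fin 3 → F) →+ F := ⟨⟨fun b => a ⬝ᵥ b, dotProduct_zero a⟩, dotProduct_add a⟩
  have hs : Function.Surjective φ := by
    intro t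
    obtain ⟨i, hi⟩ := Function.ne_iff.1 ha
    exact ⟨Pi.single i (t / a i), by
      change a ⬝ᵥ _ = t
      rw [dotProduct_single]; exact mul_div_cancel₀ _ hi⟩
  have h1 : ∀ t, Nat.card {b : Fin 3 → F // a ⬝ᵥ b = t} = Nat.card {b : Fin 3 → F // a ⬝ᵥ b = c} := fun t =>
    Nat.card_congr (AddMonoidHom.fiberEquivKerOfSurjective hs t |>.trans
      (AddMonoidHom.fiberEquivKerOfSurjective hs c).symm)
  have h2 := Nat.card_congr (Equiv.sigmaFiberEquiv φ)
  rw [Nat.card_sigma, Finset.sum_congr rfl (f := fun t => Nat.card {b // φ b = t})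
    (g := fun _ => Nat.card {b : Fin 3 → F // a ⬝ᵥ b = c}) fun t _ => h1 t, Finset.sum_const, Finset.card_univ, smul_eq_mul, Nat.card_fun, Nat.card_eq_fintype_card (α := Fin 3),
    Fintype.card_fin, ← Nat.card_eq_fintype_card, pow_succ'] at h2
  exact Nat.eq_of_mul_eq_mul_left Nat.card_pos h2

theorem card_idem [Fintype F] : Nat.card {x : Fin 8 → F // x 0 + x 7 = 1 ∧ zN F x = 0} =
    Nat.card F ^ 3 * (Nat.card F ^ 3 + 1) := by
  classical
  have e : (Σ a : Fin 3 → F, Σ α : F, {b : Fin 3 → F // a ⬝ᵥ b = α * (1 - α)}) ≃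
      {x : Fin 8 → F // x 0 + x 7 = 1 ∧ zN F x = 0} :=
    Equiv.ofBijective (fun p => ⟨![p.2.1, p.1 0, p.1 1, p.1 2, p.2.2.1 0, p.2.2.1 1, p.2.2.1 2, 1 - p.2.1],
      by simp, by
        have := p.2.2.2
        simp only [dotProduct, Fin.sum_univ_three] at this
        rw [zN_apply]; simp; linear_combination -this⟩) ⟨by
      rintro ⟨a, α, b, h⟩ ⟨a', α', b', h'⟩ e
      have e' := fun i => congrFun (congrArg Subtype.val e) i
      obtain rfl : α = α' := e' 0
      obtain rfl : a = a' := by ext i; fin_cases i; exacts [e' 1, e' 2, e' 3]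
      obtain rfl : b = b' := by ext i; fin_cases i; exacts [e' 4, e' 5, e' 6]
      rfl, by
      rintro ⟨x, h1, h2⟩
      rw [zN_apply] at h2
      refine ⟨⟨![x 1, x 2, x 3], x 0, ![x 4, x 5, x 6], by
        simp [dotProduct, Fin.sum_univ_three]; linear_combination -h2 + x 0 * h1⟩, Subtype.ext ?_⟩
      ext i
      fin_cases i <;> simp
      linear_combination -h1⟩
  rw [← Nat.card_congr e, Nat.card_sigma, ← Finset.add_sum_erase _ _ (Finset.mem_univ 0),
    Finset.sum_congr rfl (g := fun _ => Nat.card F * Nat.card F ^ 2) fun a ha => by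
      rw [Nat.card_sigma, Finset.sum_congr rfl fun α _ => card_plane (Finset.ne_of_mem_erase ha) _,
        Finset.sum_const, Finset.card_univ, smul_eq_mul, ← Nat.card_eq_fintype_card],
    Finset.sum_const, Finset.card_erase_of_mem (Finset.mem_univ _), Finset.card_univ, smul_eq_mul]
  have e0 : (Σ α : F, {b : Fin 3 → F // (0 : Fin 3 → F) ⬝ᵥ b = α * (1 - α)}) ≃ Bool × (Fin 3 → F) :=
    (Equiv.ofBijective (fun p : Bool × (Fin 3 → F) => (⟨if p.1 then 1 else 0, p.2, by
      rcases p with ⟨_ | _, _⟩ <;> simp⟩ :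
        Σ α : F, {b : Fin 3 → F // (0 : Fin 3 → F) ⬝ᵥ b = α * (1 - α)})) ⟨by
      rintro ⟨s, b⟩ ⟨s', b'⟩ e
      have e1 := congrArg (·.1) e
      obtain rfl : b = b' := congrArg (·.2.1) e
      cases s <;> cases s' <;> simp_all, by
      rintro ⟨α, b, h⟩
      have h' := h
      rw [zero_dotProduct, eq_comm, mul_eq_zero, sub_eq_zero] at h'
      rcases h' with rfl | rfl
      exacts [⟨(false, b), rfl⟩, ⟨(true, b), rfl⟩]⟩).symm
  rw [Nat.card_congr e0, Nat.card_prod, Nat.card_fun, Fintype.card_fun, Nat.card_eq_fintype_card (α := Fin 3),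
    Fintype.card_fin, ← Nat.card_eq_fintype_card, Nat.card_eq_fintype_card (α := Bool), Fintype.card_bool]
  obtain ⟨k, hk⟩ : ∃ k, Nat.card F ^ 3 = k + 1 := ⟨_, (Nat.succ_pred_eq_of_pos (pow_pos Nat.card_pos 3)).symm⟩
  rw [← pow_succ', hk, Nat.add_sub_cancel]
  ring

variable (F) in
/-- The inclusion of the `a`-space. -/
def ia : (Fin 3 → F) →ₗ[F] (Fin 8 → F) where
  toFun a := ![0, a 0, a 1, a 2, 0, 0, 0, 0]
  map_add' x y := by ext i; fin_cases i <;> simp
  map_smul' c x := by ext i; fin_cases i <;> simp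

theorem ia_apply (a : Fin 3 → F) : ia F a = ![0, a 0, a 1, a 2, 0, 0, 0, 0] := rfl

variable (F) in
/-- The projection on the `a`-space. -/
def pa : (Fin 8 → F) →ₗ[F] (Fin 3 → F) := LinearMap.funLeft F F ![1, 2, 3]

theorem pa_apply (x : Fin 8 → F) : pa F x = ![x 1, x 2, x 3] := by
  ext i; fin_cases i <;> rfl

theorem fix_ia {g : G2 F} (hg : g2Lin g (fE F) = fE F) (a : Fin 3 → F) :
    ia F (pa F (g2Lin g (ia F a))) = g2Lin g (ia F a) := by
  have h1 : zornMul (ia F a) (fE F) = ia F a := by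
    ext i; fin_cases i <;> simp [zornMul, dot3, cross3, fE, ia_apply]
  have h2 : zornMul (fE F) (ia F a) = 0 := by
    ext i; fin_cases i <;> simp [zornMul, dot3, cross3, fE, ia_apply]
  have h3 := g2_mul g (ia F a) (fE F)
  have h4 := g2_mul g (fE F) (ia F a)
  rw [h1, hg] at h3
  rw [h2, hg, map_zero] at h4
  generalize g2Lin g (ia F a) = z at h3 h4
  have k3 := congrFun h3
  have k4 := congrFun h4
  ext i
  fin_cases i <;> simp [ia_apply, pa_apply]
  · simpa [zornMul, dot3, cross3, fE, eq_comm] using k3 0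
  · simpa [zornMul, dot3, cross3, fE, eq_comm] using k3 4
  · simpa [zornMul, dot3, cross3, fE, eq_comm] using k3 5
  · simpa [zornMul, dot3, cross3, fE, eq_comm] using k3 6
  · simpa [zornMul, dot3, cross3, fE, eq_comm] using k4 7

variable (F) in
/-- The stabiliser of the standard idempotent. -/
noncomputable def St : Subgroup (G2 F) :=
  (MulAction.stabilizer ((Fin 8 → F) ≃ₗ[F] (Fin 8 → F)) (fE F)).comap g2Lin

/-- The matrix on the `a`-space. -/
noncomputable def aMat (g : G2 F) : Matrix (Fin 3) (Fin 3) F :=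
  LinearMap.toMatrix' (pa F ∘ₗ (g2Lin g).toLinearMap ∘ₗ ia F)

theorem aMat_mulVec (g : G2 F) (a : Fin 3 → F) : aMat g *ᵥ a = pa F (g2Lin g (ia F a)) := by
  rw [aMat, LinearMap.toMatrix'_mulVec]; rfl

theorem triple (u v w : Fin 3 → F) : zornMul (zornMul (ia F u) (ia F v)) (ia F w) =
    dot3 (cross3 u v) w • fE F := by
  ext i; fin_cases i <;> simp [zornMul, dot3, cross3, fE, ia_apply]

theorem aMat_det {g : G2 F} (hg : g2Lin g (fE F) = fE F) : (aMat g).det = 1 := by
  have h := congrArg (g2Lin g) (triple (Pi.single 0 1) (Pi.single 1 1) (Pi.single 2 (1 : F)))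
  rw [g2_mul, g2_mul, ← fix_ia hg, ← fix_ia hg (Pi.single 1 1), ← fix_ia hg (Pi.single 2 1), triple, map_smul, hg,
    ← aMat_mulVec, ← aMat_mulVec, ← aMat_mulVec] at h
  have := congrFun h 7
  simp [fE, dot3, cross3] at this
  rw [det_fin_three]
  linear_combination this

/-- The embedding of the stabiliser in `SL₃`. -/
noncomputable def rho : St F →* SL(3, F) :=
  MonoidHom.mk' (fun g => ⟨aMat g.1, aMat_det g.2⟩) fun g h => Subtype.ext (by
    change aMat (g.1 * h.1) = aMat g.1 * aMat h.1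
    refine ext_iff_mulVec.2 fun a => ?_
    rw [← mulVec_mulVec, aMat_mulVec, aMat_mulVec, aMat_mulVec, fix_ia h.2, map_mul]
    rfl)

theorem g2Lin_injective : Function.Injective (g2Lin (F := F)) :=
  (glEquiv (Fin 8) F).injective.comp Subtype.val_injective

theorem rho_injective : Function.Injective (rho (F := F)) := by
  refine (injective_iff_map_eq_one _).2 fun g hg => Subtype.ext (g2Lin_injective ?_)
  have h0 : aMat g.1 = 1 := congrArg Subtype.val hg
  have hf : g2Lin g.1 (fE F) = fE F := g.2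
  have h1 : ∀ a, g2Lin g.1 (ia F a) = ia F a := fun a => by
    rw [← fix_ia hf, ← aMat_mulVec, h0, one_mulVec]
  have h2 : ∀ u v, g2Lin g.1 (zornMul (ia F u) (ia F v)) = zornMul (ia F u) (ia F v) := fun u v => by
    rw [g2_mul, h1, h1]
  refine LinearEquiv.ext fun x => ?_
  have hx : x = x 0 • zE F + (x 7 - x 0) • fE F + ia F ![x 1, x 2, x 3] +
      zornMul (ia F ![0, x 4, 0]) (ia F ![0, 0, 1]) + zornMul (ia F ![0, 0, x 5]) (ia F ![1, 0, 0]) +
      zornMul (ia F ![x 6, 0, 0]) (ia F ![0, 1, 0]) := by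
    ext i; fin_cases i <;> simp [zornMul, dot3, cross3, fE, zE, ia_apply]
  rw [OneMemClass.coe_one, map_one, LinearEquiv.coe_one, id]
  conv_lhs => rw [hx]
  rw [map_add, map_add, map_add, map_add, map_add, map_smul, map_smul, g2_zE, hf, h1, h2, h2, h2, ← hx]

theorem card_SL3 [Fintype F] : Nat.card SL(3, F) =
    Nat.card F ^ 3 * (Nat.card F ^ 2 - 1) * (Nat.card F ^ 3 - 1) := by
  have h := Classical.card_SL_mul (F := F) 3 (by omega)
  have h1 : 1 < Nat.card F := Finite.one_lt_card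
  refine Nat.eq_of_mul_eq_mul_left (show 0 < Nat.card F - 1 by omega) ?_
  rw [h, Fin.prod_univ_three]
  generalize Nat.card F = q at h1
  have a1 : 1 ≤ q ^ 2 := Nat.one_le_pow _ _ (by omega)
  have a2 : 1 ≤ q ^ 3 := Nat.one_le_pow _ _ (by omega)
  have a3 : q ^ 1 ≤ q ^ 3 := Nat.pow_le_pow_right (by omega) (by omega)
  have a4 : q ^ 2 ≤ q ^ 3 := Nat.pow_le_pow_right (by omega) (by omega)
  simp only [Fin.val_zero, Fin.val_one, Fin.val_two, pow_zero]
  zify [a1, a2, a3, a4, h1.le]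
  ring

theorem card_G2_dvd [Fintype F] : Nat.card (G2 F) ∣ Nat.card F ^ 3 * (Nat.card F ^ 3 + 1) *
    (Nat.card F ^ 3 * (Nat.card F ^ 2 - 1) * (Nat.card F ^ 3 - 1)) := by
  letI := MulAction.compHom (Fin 8 → F) (g2Lin (F := F))
  have h1 : (St F).index = (MulAction.orbit (G2 F) (fE F)).ncard := MulAction.index_stabilizer (G2 F) (fE F)
  have h2 : MulAction.orbit (G2 F) (fE F) = {x | x 0 + x 7 = 1 ∧ zN F x = 0} := by
    ext x
    constructor
    · rintro ⟨g, rfl⟩
      have := g2_inv g (fE F)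
      rw [zN_apply (fE F)] at this
      exact ⟨this.1.trans (by simp [fE]), this.2.trans (by simp [fE])⟩
    · rintro ⟨a, b⟩
      obtain ⟨g, hg⟩ := or_idem a b
      refine ⟨g⁻¹, ?_⟩
      change g2Lin g⁻¹ (fE F) = x
      rw [← hg, map_inv]
      exact (g2Lin g).symm_apply_apply x
  rw [← (St F).index_mul_card, h1, h2, ← Nat.card_coe_set_eq, ← card_SL3, ← card_idem]
  exact Nat.mul_dvd_mul_left _ (Subgroup.card_dvd_of_injective _ rho_injective)

end Cfsg.Agent.Syl2.G2
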